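import Mathlib
import Cfsg.Agent.Lib.Helper51.Zass.Defs
import Cfsg.Agent.Lib.Helper79.Zass.Str120Defs

/-!
# Project ZASS (S0690): package [STR120-T]

The transfer of the `T(5)`-structure from the group `↥Pl` to the subgroups of `G` inside `Pl`.
-/

set_option autoImplicit false

namespace Cfsg.Agent.Lib.Helper61.Zass

open Cfsg.Agent.Lib.Helper51.Zass

universe u

/-- The subgroup of `G` corresponding to a subgroup of `↥Pl`. -/
def toG {G : Type u} [Group G] (Pl : Subgroup G) (K : Subgroup Pl) : Subgroup G :=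
  K.map Pl.subtype

section ToG

variable {G : Type u} [Group G] (Pl : Subgroup G)

theorem toG_injective : Function.Injective (toG Pl) :=
  Subgroup.map_injective Pl.subtype_injective

theorem card_toG (K : Subgroup Pl) : Nat.card (toG Pl K) = Nat.card K :=
  Nat.card_congr (K.equivMapOfInjective Pl.subtype Pl.subtype_injective).symm.toEquiv

theorem toG_sup (K K' : Subgroup Pl) : toG Pl K ⊔ toG Pl K' = toG Pl (K ⊔ K') :=
  (Subgroup.map_sup K K' _).symm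

theorem toG_le_iff (K K' : Subgroup Pl) : toG Pl K ≤ toG Pl K' ↔ K ≤ K' :=
  Subgroup.map_le_map_iff_of_injective Pl.subtype_injective

theorem toG_le (K : Subgroup Pl) : toG Pl K ≤ Pl := Subgroup.map_subtype_le K

theorem toG_top : toG Pl ⊤ = Pl := by
  apply le_antisymm (toG_le Pl ⊤)
  intro x hx
  exact ⟨⟨x, hx⟩, Subgroup.mem_top _, rfl⟩

theorem exists_toG (Q : Subgroup G) (hQ : Q ≤ Pl) : ∃ K, toG Pl K = Q :=
  ⟨Q.subgroupOf Pl, Subgroup.map_subgroupOf_eq_of_le hQ⟩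

theorem ncard_toG (p : Subgroup G → Prop) :
    Set.ncard {Q : Subgroup G | Q ≤ Pl ∧ p Q} = Set.ncard {K : Subgroup Pl | p (toG Pl K)} := by
  have h : {Q : Subgroup G | Q ≤ Pl ∧ p Q} = toG Pl '' {K : Subgroup Pl | p (toG Pl K)} := by
    ext Q
    constructor
    · rintro ⟨hle, hp⟩
      obtain ⟨K, rfl⟩ := exists_toG Pl Q hle
      exact ⟨K, hp, rfl⟩
    · rintro ⟨K, hK, rfl⟩
      exact ⟨toG_le Pl K, hK⟩
  rw [h, Set.ncard_image_of_injective _ (toG_injective Pl)]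

end ToG

theorem pkgStr120T : Cfsg.Agent.Lib.Helper79.Zass.PkgStr120T.{u} := by
  intro hM G _ _ hUI Pl hPl
  obtain ⟨f, hf, hker⟩ := hPl
  have hUI' : ∀ s t : Pl, orderOf s = 2 → orderOf t = 2 → s = t := by
    intro s t hs ht
    apply Subtype.ext
    apply hUI
    · rw [Subgroup.orderOf_coe]; exact hs
    · rw [Subgroup.orderOf_coe]; exact ht
  obtain ⟨hA, hB, hC⟩ := hM Pl hUI' f hf hker
  refine ⟨?_, ?_, ?_⟩
  · intro P hP hPle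
    obtain ⟨P', rfl⟩ := exists_toG Pl P hPle
    have h1 : {Q : Subgroup G | Nat.card Q = 3 ∧ Q ≤ Pl ∧ Nat.card ↥(toG Pl P' ⊔ Q) = 24}
        = {Q : Subgroup G | Q ≤ Pl ∧ (Nat.card Q = 3 ∧ Nat.card ↥(toG Pl P' ⊔ Q) = 24)} := by
      ext Q; simp only [Set.mem_ofPred_eq]; tauto
    have h2 : {K : Subgroup Pl | Nat.card (toG Pl K) = 3 ∧
          Nat.card ↥(toG Pl P' ⊔ toG Pl K) = 24}
        = {Q : Subgroup Pl | Nat.card Q = 3 ∧ Nat.card ↥(P' ⊔ Q) = 24} := by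
      ext K; simp only [Set.mem_ofPred_eq, toG_sup, card_toG]
    calc Set.ncard {Q : Subgroup G | Nat.card Q = 3 ∧ Q ≤ Pl ∧ Nat.card ↥(toG Pl P' ⊔ Q) = 24}
        = Set.ncard {Q : Subgroup G | Q ≤ Pl ∧
            (Nat.card Q = 3 ∧ Nat.card ↥(toG Pl P' ⊔ Q) = 24)} := by rw [h1]
      _ = Set.ncard {K : Subgroup Pl | Nat.card (toG Pl K) = 3 ∧
            Nat.card ↥(toG Pl P' ⊔ toG Pl K) = 24} := ncard_toG Pl _
      _ = Set.ncard {Q : Subgroup Pl | Nat.card Q = 3 ∧ Nat.card ↥(P' ⊔ Q) = 24} := by rw [h2]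
      _ = 6 := hA P' (by rw [← card_toG]; exact hP)
  · intro P Q hP hQ hPle hQle hPQ
    obtain ⟨P', rfl⟩ := exists_toG Pl P hPle
    obtain ⟨Q', rfl⟩ := exists_toG Pl Q hQle
    have htop : P' ⊔ Q' = ⊤ := by
      apply toG_injective Pl
      rw [← toG_sup, hPQ, toG_top]
    have h1 : {R : Subgroup G | Nat.card R = 3 ∧ R ≤ Pl ∧ Nat.card ↥(toG Pl P' ⊔ R) = 24 ∧
          Nat.card ↥(toG Pl Q' ⊔ R) = 24}
        = {R : Subgroup G | R ≤ Pl ∧ (Nat.card R = 3 ∧ Nat.card ↥(toG Pl P' ⊔ R) = 24 ∧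
          Nat.card ↥(toG Pl Q' ⊔ R) = 24)} := by
      ext R; simp only [Set.mem_ofPred_eq]; tauto
    have h2 : {K : Subgroup Pl | Nat.card (toG Pl K) = 3 ∧
          Nat.card ↥(toG Pl P' ⊔ toG Pl K) = 24 ∧ Nat.card ↥(toG Pl Q' ⊔ toG Pl K) = 24}
        = {R : Subgroup Pl | Nat.card R = 3 ∧ Nat.card ↥(P' ⊔ R) = 24 ∧
          Nat.card ↥(Q' ⊔ R) = 24} := by
      ext K; simp only [Set.mem_ofPred_eq, toG_sup, card_toG]
    calc Set.ncard {R : Subgroup G | Nat.card R = 3 ∧ R ≤ Pl ∧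
            Nat.card ↥(toG Pl P' ⊔ R) = 24 ∧ Nat.card ↥(toG Pl Q' ⊔ R) = 24}
        = Set.ncard {R : Subgroup G | R ≤ Pl ∧ (Nat.card R = 3 ∧
            Nat.card ↥(toG Pl P' ⊔ R) = 24 ∧ Nat.card ↥(toG Pl Q' ⊔ R) = 24)} := by rw [h1]
      _ = Set.ncard {K : Subgroup Pl | Nat.card (toG Pl K) = 3 ∧
            Nat.card ↥(toG Pl P' ⊔ toG Pl K) = 24 ∧ Nat.card ↥(toG Pl Q' ⊔ toG Pl K) = 24} :=
          ncard_toG Pl _
      _ = Set.ncard {R : Subgroup Pl | Nat.card R = 3 ∧ Nat.card ↥(P' ⊔ R) = 24 ∧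
            Nat.card ↥(Q' ⊔ R) = 24} := by rw [h2]
      _ = 4 := hB P' Q' (by rw [← card_toG]; exact hP) (by rw [← card_toG]; exact hQ) htop
  · intro P Q hP hQ hPle hQle hPQ
    obtain ⟨P', rfl⟩ := exists_toG Pl P hPle
    obtain ⟨Q', rfl⟩ := exists_toG Pl Q hQle
    have h24 : Nat.card ↥(P' ⊔ Q') = 24 := by
      rw [← card_toG, ← toG_sup]; exact hPQ
    have h1 : {R : Subgroup G | Nat.card R = 3 ∧ R ≤ Pl ∧ ¬ R ≤ toG Pl P' ⊔ toG Pl Q' ∧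
          Nat.card ↥(toG Pl P' ⊔ R) = 24 ∧ Nat.card ↥(toG Pl Q' ⊔ R) = 24}
        = {R : Subgroup G | R ≤ Pl ∧ (Nat.card R = 3 ∧ ¬ R ≤ toG Pl P' ⊔ toG Pl Q' ∧
          Nat.card ↥(toG Pl P' ⊔ R) = 24 ∧ Nat.card ↥(toG Pl Q' ⊔ R) = 24)} := by
      ext R; simp only [Set.mem_ofPred_eq]; tauto
    have h2 : {K : Subgroup Pl | Nat.card (toG Pl K) = 3 ∧
          ¬ toG Pl K ≤ toG Pl P' ⊔ toG Pl Q' ∧
          Nat.card ↥(toG Pl P' ⊔ toG Pl K) = 24 ∧ Nat.card ↥(toG Pl Q' ⊔ toG Pl K) = 24}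
        = {R : Subgroup Pl | Nat.card R = 3 ∧ ¬ R ≤ P' ⊔ Q' ∧ Nat.card ↥(P' ⊔ R) = 24 ∧
          Nat.card ↥(Q' ⊔ R) = 24} := by
      ext K; simp only [Set.mem_ofPred_eq, toG_sup, card_toG, toG_le_iff]
    calc Set.ncard {R : Subgroup G | Nat.card R = 3 ∧ R ≤ Pl ∧ ¬ R ≤ toG Pl P' ⊔ toG Pl Q' ∧
            Nat.card ↥(toG Pl P' ⊔ R) = 24 ∧ Nat.card ↥(toG Pl Q' ⊔ R) = 24}
        = Set.ncard {R : Subgroup G | R ≤ Pl ∧ (Nat.card R = 3 ∧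
            ¬ R ≤ toG Pl P' ⊔ toG Pl Q' ∧
            Nat.card ↥(toG Pl P' ⊔ R) = 24 ∧ Nat.card ↥(toG Pl Q' ⊔ R) = 24)} := by rw [h1]
      _ = Set.ncard {K : Subgroup Pl | Nat.card (toG Pl K) = 3 ∧
            ¬ toG Pl K ≤ toG Pl P' ⊔ toG Pl Q' ∧
            Nat.card ↥(toG Pl P' ⊔ toG Pl K) = 24 ∧ Nat.card ↥(toG Pl Q' ⊔ toG Pl K) = 24} :=
          ncard_toG Pl _
      _ = Set.ncard {R : Subgroup Pl | Nat.card R = 3 ∧ ¬ R ≤ P' ⊔ Q' ∧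
            Nat.card ↥(P' ⊔ R) = 24 ∧ Nat.card ↥(Q' ⊔ R) = 24} := by rw [h2]
      _ = 1 := hC P' Q' (by rw [← card_toG]; exact hP) (by rw [← card_toG]; exact hQ) h24

end Cfsg.Agent.Lib.Helper61.Zass
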